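import Cfsg.Agent.CN.Complement
import Cfsg.Agent.Fitting.Join
import Cfsg.Agent.Eq.Def_OddOrderLocal

/-!
# Groups in which every element centraliser is a TI-subgroup: local structure
-/

set_option autoImplicit false
set_option linter.unusedSectionVars false

namespace CfsgLib.TICentralizers

open Cfsg

/-- Every element centraliser is a TI-subgroup. -/
def Hyp (G : Type*) [Group G] : Prop :=
  ∀ x y g : G, y ≠ 1 → Commute y x → Commute (g * y * g⁻¹) x →
    ∀ c : G, Commute c x → Commute (g * c * g⁻¹) x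

variable {G : Type*} [Group G]

theorem hyp_of_isTISubset
    (h : ∀ x : G, Cfsg.IsTISubset (Subgroup.centralizer ({x} : Set G) : Set G)) : Hyp G := by
  intro x y g hy hyx hgy c hc
  by_contra hgc
  refine hy (h x g (fun hg => hgc ?_) y (Subgroup.mem_centralizer_singleton_iff.2 hyx)
    (Subgroup.mem_centralizer_singleton_iff.2 hgy))
  exact Subgroup.mem_centralizer_singleton_iff.1
    ((Subgroup.mem_normalizer_iff.1 hg c).1 (Subgroup.mem_centralizer_singleton_iff.2 hc))

theorem Hyp.of_injective {H : Type*} [Group H] (hG : Hyp G) (f : H →* G)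
    (hf : Function.Injective f) : Hyp H := by
  intro x y g hy hyx hgy c hc
  have hgy' : Commute (f g * f y * (f g)⁻¹) (f x) := by
    simpa only [map_mul, map_inv] using hgy.map f
  have := hG (f x) (f y) (f g) (fun e => hy ((map_eq_one_iff f hf).1 e)) (hyx.map f) hgy' (f c) (hc.map f)
  refine hf ?_
  simpa only [map_mul, map_inv] using this.eq

variable [Finite G]

/-- With a non-trivial centre the group is nilpotent. -/
theorem Hyp.isNilpotent (hG : Hyp G) {z : G} (hz : z ≠ 1) (hzc : ∀ g, Commute g z) :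
    Group.IsNilpotent G := by
  have hn : ∀ x g c : G, Commute c x → Commute (g * c * g⁻¹) x := fun x g =>
    hG x z g hz (hzc x).symm (by rw [(hzc g).eq, mul_inv_cancel_right]; exact (hzc x).symm)
  suffices h : Group.IsNilpotent (⊤ : Subgroup G) from Group.nilpotent_of_mulEquiv Subgroup.topEquiv
  refine CfsgLib.CN.isNilpotent_of_commute fun p q hp hq hpq x _ y _ hx hy => ?_
  have hxy : Commute (y * x * y⁻¹) x := hn x y x (Commute.refl x)
  have hyx : Commute (x * y * x⁻¹) y := hn y x y (Commute.refl y)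
  obtain ⟨i, hi⟩ := hx ⟨x, Subgroup.mem_zpowers x⟩
  obtain ⟨j, hj⟩ := hy ⟨y, Subgroup.mem_zpowers y⟩
  have hx1 : x ^ p ^ i = 1 := congrArg Subtype.val hi
  have hy1 : y ^ q ^ j = 1 := congrArg Subtype.val hj
  have e1 : (x * (y * x * y⁻¹)⁻¹) ^ p ^ i = 1 := by
    rw [hxy.symm.inv_right.mul_pow, inv_pow, conj_pow, hx1]
    simp
  have e2 : (x * y * x⁻¹ * y⁻¹) ^ q ^ j = 1 := by
    rw [hyx.inv_right.mul_pow, inv_pow, conj_pow, hy1]
    simp
  have e : x * (y * x * y⁻¹)⁻¹ = x * y * x⁻¹ * y⁻¹ := by group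
  rw [e] at e1
  have hcop : (p ^ i).Coprime (q ^ j) := Nat.Coprime.pow _ _ ((Nat.coprime_primes hp hq).2 hpq)
  have h1 : x * y * x⁻¹ * y⁻¹ = 1 := orderOf_eq_one_iff.1 (Nat.eq_one_of_dvd_coprimes hcop
    (orderOf_dvd_of_pow_eq_one e1) (orderOf_dvd_of_pow_eq_one e2))
  exact mul_inv_eq_iff_eq_mul.1 (mul_inv_eq_one.1 h1)

theorem Hyp.isCNGroup (hG : Hyp G) : IsCNGroup G := fun x hx =>
  (hG.of_injective (Subgroup.centralizer ({x} : Set G)).subtype Subtype.val_injective).isNilpotent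
    (z := ⟨x, Subgroup.mem_centralizer_singleton_iff.2 rfl⟩) (fun e => hx (congrArg Subtype.val e))
    (fun c => Subtype.ext (Subgroup.mem_centralizer_singleton_iff.1 c.2))

open CfsgLib.CN

theorem exists_central {M : Subgroup G} (hM : Group.IsNilpotent M) (hM1 : M ≠ ⊥) :
    ∃ z ∈ M, z ≠ 1 ∧ ∀ m ∈ M, Commute m z := by
  haveI := hM
  haveI : Nontrivial M := (Subgroup.nontrivial_iff_ne_bot M).2 hM1
  haveI : Nontrivial (Subgroup.center M) := (Subgroup.nontrivial_iff_ne_bot _).2 (Group.IsNilpotent.center_ne_bot M)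
  obtain ⟨⟨z, hz⟩, hz1⟩ := exists_ne (1 : Subgroup.center M)
  exact ⟨z, z.2, fun e => hz1 (Subtype.ext (Subtype.ext e)),
    fun m hm => congrArg Subtype.val (Subgroup.mem_center_iff.1 hz ⟨m, hm⟩)⟩

/-- A maximal nilpotent subgroup is a TI-subgroup. -/
theorem Hyp.ti (hG : Hyp G) {M : Subgroup G} (hM : IsMaxNilpotent M) {g x : G} (hx : x ∈ M)
    (hx1 : x ≠ 1) (hgx : g * x * g⁻¹ ∈ M) : g ∈ Subgroup.normalizer (M : Set G) := by
  obtain ⟨z, hzM, hz1, hz⟩ := exists_central hM.1 (fun e => hx1 (Subgroup.mem_bot.1 (e ▸ hx)))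
  have hC : Subgroup.centralizer ({z} : Set G) = M :=
    centralizer_eq hG.isCNGroup hM hz1 fun m hm => Subgroup.mem_centralizer_singleton_iff.2 (hz m hm).eq
  refine Subgroup.mem_normalizer_fintype (S := (M : Set G)) fun c hc => ?_
  rw [SetLike.mem_coe, ← hC, Subgroup.mem_centralizer_singleton_iff]
  exact hG z x g hx1 (hz x hx) (hz _ hgx) c (hz c hc)

/-- A maximal nilpotent subgroup contains the centralisers of its non-identity elements. -/
theorem Hyp.centralizer_le (hG : Hyp G) {M : Subgroup G} (hM : IsMaxNilpotent M) {x c : G}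
    (hx : x ∈ M) (hx1 : x ≠ 1) (hc : Commute c x) : c ∈ M := by
  set N := Subgroup.normalizer (M : Set G)
  set C := Subgroup.centralizer ({x} : Set G) with hCdef
  have hCN : C ≤ N := fun d hd => hG.ti hM hx hx1 (by
    rw [Subgroup.mem_centralizer_singleton_iff.1 hd, mul_inv_cancel_right]; exact hx)
  obtain ⟨z, hzM, hz1, hz⟩ := exists_central hM.1 (fun e => hx1 (Subgroup.mem_bot.1 (e ▸ hx)))
  have hCn : ∀ n ∈ N, ∀ d ∈ C, n * d * n⁻¹ ∈ C := by
    intro n hn d hd
    rw [Subgroup.mem_centralizer_singleton_iff] at hd ⊢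
    refine hG x z n hz1 (hz x hx).symm ?_ d hd
    have h1 : n⁻¹ * x * n ∈ M := by
      simpa using (Subgroup.mem_normalizer_iff.1 (N.inv_mem hn) x).1 hx
    have := (hz _ h1).map (MulAut.conj n).toMonoidHom
    simpa [mul_assoc] using this.symm
  haveI : (C.subgroupOf N).Normal := ⟨fun d hd n => hCn n n.2 d hd⟩
  haveI : (M.subgroupOf N).Normal := Subgroup.normal_in_normalizer
  have h1 : Group.IsNilpotent (C.subgroupOf N) :=
    haveI := hG.isCNGroup x hx1
    Group.nilpotent_of_mulEquiv (Subgroup.subgroupOfEquivOfLe hCN).symm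
  have h2 : Group.IsNilpotent (M.subgroupOf N) :=
    haveI := hM.1
    Group.nilpotent_of_mulEquiv (Subgroup.subgroupOfEquivOfLe Subgroup.le_normalizer).symm
  have hL := isNilpotent_map N.subtype
    (CfsgLib.Fitting.isNilpotent_sup (M.subgroupOf N) (C.subgroupOf N) h2 h1)
  rw [Subgroup.map_sup, Subgroup.map_subgroupOf_eq_of_le Subgroup.le_normalizer,
    Subgroup.map_subgroupOf_eq_of_le hCN] at hL
  rw [← hM.2 _ hL le_sup_left]
  exact Subgroup.mem_sup_right (Subgroup.mem_centralizer_singleton_iff.2 hc.eq)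

theorem exists_normal_maxNilpotent (hG : Hyp G) {R : Subgroup G} (hR : R.Normal)
    (hRs : Group.IsSolvable R) (hR1 : R ≠ ⊥) :
    ∃ M : Subgroup G, IsMaxNilpotent M ∧ M.Normal ∧ M ≠ ⊥ := by
  haveI := hR
  obtain ⟨p, A, hp, hA, -, hA1, hAp⟩ := exists_normal_pGroup_le R hRs hR1
  haveI := Fact.mk hp
  obtain ⟨M, hM, hAM⟩ := CN.exists_maxNilpotent hAp.isNilpotent
  obtain ⟨x, hx, hx1⟩ := (Subgroup.bot_or_exists_ne_one A).resolve_left hA1
  exact ⟨M, hM, Subgroup.normalizer_eq_top_iff.1 (eq_top_iff.2 fun g _ =>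
    hG.ti hM (hAM hx) hx1 (hAM (hA.conj_mem x hx g))), fun e => hx1 (Subgroup.mem_bot.1 (e ▸ hAM hx))⟩

end CfsgLib.TICentralizers
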